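import Cfsg.Agent.H210.FR.Heis
import Cfsg.Agent.H980.RB.Step3
import Cfsg.Agent.H395.FR.Fix

/-!
# Elements which move the centre of a Heisenberg radical (S2452, `F₄(q)`, box D1; helper210)

* `ratio_move` : `g` normalises the Heisenberg group `V ≠ Z` and acts on the centre `Z = X.range` as `t ↦ c t`, `c ≠ 1`; if
  `‖χ x‖ ≤ r χ(1)` for `1 ≠ x ∈ V` then `‖χ g‖ ≤ (r + q⁻²) χ(1)`.
-/

set_option autoImplicit false
set_option linter.unusedSectionVars false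

namespace Cfsg.Agent.H210.FR.DOne

open Module
open Cfsg.Agent.H980.RB (Hei)
open Cfsg.Agent.H572.FR (cd)
open Cfsg.Agent.H395.FR (card_mul_cd cd_le)
open Cfsg.Agent.SmallSimple.BTBasic (fixd fixd_def norm_character_le_fixd_rep)

universe u

variable {G : Type u} [Group G] {K : Type*} [Field K] {X : Multiplicative K →* G} {V : Subgroup G}

/-- the commutators with `g`, times the centre -/
def BG (h : Hei X V) {g : G} (hg : ∀ q ∈ V, g⁻¹ * q * g ∈ V) : Subgroup G where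
  carrier := {x | ∃ q ∈ V, ∃ u, x = g⁻¹ * q * g * q⁻¹ * X u}
  one_mem' := ⟨1, one_mem _, 1, by simp⟩
  mul_mem' := by
    rintro _ _ ⟨q, hq, u, rfl⟩ ⟨q', hq', u', rfl⟩
    obtain ⟨w, hw⟩ := h.com q⁻¹ (V.inv_mem hq) (g⁻¹ * q' * g * q'⁻¹) (V.mul_mem (hg q' hq') (V.inv_mem hq'))
    refine ⟨q * q', V.mul_mem hq hq', w * (u * u'), ?_⟩
    have c1 : ∀ v ∈ V, v * X u = X u * v := fun v hv => h.cen v hv u
    have c2 : ∀ v ∈ V, v * X w = X w * v := fun v hv => h.cen v hv w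
    have e1 : q⁻¹ * (g⁻¹ * q' * g * q'⁻¹) = X w * ((g⁻¹ * q' * g * q'⁻¹) * q⁻¹) := by
      rw [hw]
      group
    calc g⁻¹ * q * g * q⁻¹ * X u * (g⁻¹ * q' * g * q'⁻¹ * X u')
        = (g⁻¹ * q * g) * (q⁻¹ * (X u * (g⁻¹ * q' * g * q'⁻¹))) * X u' := by group
      _ = (g⁻¹ * q * g) * (q⁻¹ * ((g⁻¹ * q' * g * q'⁻¹) * X u)) * X u' := by
          rw [c1 _ (V.mul_mem (hg q' hq') (V.inv_mem hq'))]
      _ = (g⁻¹ * q * g) * (q⁻¹ * (g⁻¹ * q' * g * q'⁻¹)) * (X u * X u') := by group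
      _ = (g⁻¹ * q * g) * (X w * ((g⁻¹ * q' * g * q'⁻¹) * q⁻¹)) * (X u * X u') := by rw [e1]
      _ = (g⁻¹ * q * g) * (((g⁻¹ * q' * g * q'⁻¹) * q⁻¹) * X w) * (X u * X u') := by
          rw [c2 _ (V.mul_mem (V.mul_mem (hg q' hq') (V.inv_mem hq')) (V.inv_mem hq))]
      _ = g⁻¹ * (q * q') * g * (q * q')⁻¹ * X (w * (u * u')) := by
          rw [map_mul, map_mul]
          group
  inv_mem' := by
    rintro _ ⟨q, hq, u, rfl⟩
    obtain ⟨w, hw⟩ := h.com (g⁻¹ * q⁻¹ * g) (hg _ (V.inv_mem hq)) q hq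
    have hA : g⁻¹ * q⁻¹ * g ∈ V := hg _ (V.inv_mem hq)
    refine ⟨q⁻¹, V.inv_mem hq, w⁻¹ * u⁻¹, ?_⟩
    have e1 : q * (g⁻¹ * q⁻¹ * g) = X w⁻¹ * ((g⁻¹ * q⁻¹ * g) * q) := by
      rw [map_inv, hw]
      group
    calc (g⁻¹ * q * g * q⁻¹ * X u)⁻¹ = X u⁻¹ * (q * (g⁻¹ * q⁻¹ * g)) := by
          rw [map_inv]
          group
      _ = X u⁻¹ * (X w⁻¹ * ((g⁻¹ * q⁻¹ * g) * q)) := by rw [e1]
      _ = X (u⁻¹ * w⁻¹) * ((g⁻¹ * q⁻¹ * g) * q) := by rw [map_mul]; group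
      _ = ((g⁻¹ * q⁻¹ * g) * q) * X (u⁻¹ * w⁻¹) := (h.cen _ (V.mul_mem hA hq) _).symm
      _ = g⁻¹ * q⁻¹ * g * q⁻¹⁻¹ * X (w⁻¹ * u⁻¹) := by rw [inv_inv, mul_comm u⁻¹]

theorem BG_le (h : Hei X V) {g : G} (hg : ∀ q ∈ V, g⁻¹ * q * g ∈ V) : BG h hg ≤ V := by
  rintro _ ⟨q, hq, u, rfl⟩
  exact V.mul_mem (V.mul_mem (hg q hq) (V.inv_mem hq)) (h.mem u)

section

variable {g : G} {c : K} (hc1 : c ≠ 1) (hgX : ∀ t : K, g * X (.ofAdd t) * g⁻¹ = X (.ofAdd (c * t)))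
  (hinj : Function.Injective X)

include hgX hinj in
theorem c_ne_zero : c ≠ 0 := by
  rintro rfl
  have h1 : g * X (.ofAdd (1 : K)) * g⁻¹ = 1 := by
    rw [hgX, zero_mul, ofAdd_zero]
    exact map_one X
  have h2 : X (.ofAdd (1 : K)) = 1 := by
    calc X (.ofAdd (1 : K)) = g⁻¹ * (g * X (.ofAdd 1) * g⁻¹) * g := by group
      _ = 1 := by rw [h1]; group
  have h3 : Multiplicative.ofAdd (1 : K) = 1 := hinj (h2.trans (map_one X).symm)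
  exact one_ne_zero (Multiplicative.ofAdd.injective (h3.trans ofAdd_zero.symm))

include hgX hinj in
theorem inv_act (t : K) : g⁻¹ * X (.ofAdd t) * g = X (.ofAdd (c⁻¹ * t)) := by
  have hc0 := c_ne_zero hgX hinj
  have h1 := hgX (c⁻¹ * t)
  rw [← mul_assoc, mul_inv_cancel₀ hc0, one_mul] at h1
  rw [← h1]
  group

include hc1 hgX hinj in
/-- all elements of `g B` are conjugate to `g` -/
theorem conj_BG (h : Hei X V) (hg : ∀ q ∈ V, g⁻¹ * q * g ∈ V) {x : G} (hx : x ∈ BG h hg) : IsConj g (g * x) := by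
  obtain ⟨q, hq, u, rfl⟩ := hx
  have hc0 := c_ne_zero hgX hinj
  have hc2 : c⁻¹ - 1 ≠ 0 := by
    intro h0
    rw [sub_eq_zero, inv_eq_one] at h0
    exact hc1 h0
  set s : K := Multiplicative.toAdd u / (c⁻¹ - 1) with hs
  have h1 := inv_act hgX hinj s
  rw [isConj_iff]
  refine ⟨q * X (.ofAdd s), ?_⟩
  have e1 : X (.ofAdd (c⁻¹ * s)) * (X (.ofAdd s))⁻¹ = X u := by
    rw [← map_inv, ← map_mul, ← ofAdd_neg, ← ofAdd_add]
    congr 1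
    have : c⁻¹ * s + -s = Multiplicative.toAdd u := by
      rw [hs]
      field_simp
      ring
    rw [this]
    rfl
  have hA : g⁻¹ * q * g ∈ V := hg q hq
  have c1 : q⁻¹ * X u = X u * q⁻¹ := h.cen _ (V.inv_mem hq) u
  calc q * X (.ofAdd s) * g * (q * X (.ofAdd s))⁻¹
      = g * ((g⁻¹ * q * g) * ((g⁻¹ * X (.ofAdd s) * g) * (X (.ofAdd s))⁻¹) * q⁻¹) := by group
    _ = g * ((g⁻¹ * q * g) * (X u * q⁻¹)) := by rw [h1, e1]; group
    _ = g * (g⁻¹ * q * g * q⁻¹ * X u) := by rw [← c1]; group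

include hgX hinj hc1 in
theorem comm_zero (h : Hei X V) {x y : G} (hx : x ∈ V) (hy : y ∈ V)
    (hxc : g⁻¹ * x * g * x⁻¹ ∈ X.range) (hyc : g⁻¹ * y * g * y⁻¹ ∈ X.range) : x * y * x⁻¹ * y⁻¹ = 1 := by
  obtain ⟨t, ht⟩ := h.com x hx y hy
  obtain ⟨u, hu⟩ := hxc
  obtain ⟨w, hw⟩ := hyc
  have h1 : g⁻¹ * x * g = X u * x := by rw [hu]; group
  have h2 : g⁻¹ * y * g = X w * y := by rw [hw]; group
  have h3 : g⁻¹ * (x * y * x⁻¹ * y⁻¹) * g = x * y * x⁻¹ * y⁻¹ := by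
    calc g⁻¹ * (x * y * x⁻¹ * y⁻¹) * g
        = (g⁻¹ * x * g) * (g⁻¹ * y * g) * (g⁻¹ * x * g)⁻¹ * (g⁻¹ * y * g)⁻¹ := by group
      _ = X u * (x * X w) * y * x⁻¹ * (X u)⁻¹ * y⁻¹ * (X w)⁻¹ := by rw [h1, h2]; group
      _ = X u * X w * (x * y * x⁻¹) * (X u)⁻¹ * y⁻¹ * (X w)⁻¹ := by rw [h.cen x hx w]; group
      _ = X u * X w * ((x * y * x⁻¹) * X u⁻¹) * (y⁻¹ * X w⁻¹) := by rw [map_inv, map_inv]; group
      _ = X u * X w * (X u⁻¹ * (x * y * x⁻¹)) * (X w⁻¹ * y⁻¹) := by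
          rw [h.cen _ (V.mul_mem (V.mul_mem hx hy) (V.inv_mem hx)), h.cen _ (V.inv_mem hy)]
      _ = X u * X w * X u⁻¹ * ((x * y * x⁻¹) * X w⁻¹) * y⁻¹ := by group
      _ = X u * X w * X u⁻¹ * (X w⁻¹ * (x * y * x⁻¹)) * y⁻¹ := by
          rw [h.cen _ (V.mul_mem (V.mul_mem hx hy) (V.inv_mem hx))]
      _ = (X u * X w * X u⁻¹ * X w⁻¹) * (x * y * x⁻¹ * y⁻¹) := by group
      _ = x * y * x⁻¹ * y⁻¹ := by
          have : X u * X w * X u⁻¹ * X w⁻¹ = 1 := by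
            rw [← map_mul, ← map_mul, ← map_mul, mul_comm u w, mul_assoc w, mul_inv_cancel, mul_one, mul_inv_cancel,
              map_one]
          rw [this, one_mul]
  have h4 : X t = X (.ofAdd (Multiplicative.toAdd t)) := rfl
  rw [← ht, h4, inv_act hgX hinj] at h3
  have h5 : c⁻¹ * Multiplicative.toAdd t = Multiplicative.toAdd t := Multiplicative.ofAdd.injective (hinj h3)
  have h6 : Multiplicative.toAdd t = 0 := by
    by_contra h0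
    have h7 : c⁻¹ = 1 := mul_right_cancel₀ h0 (by rw [h5, one_mul])
    exact hc1 (inv_eq_one.1 h7)
  rw [← ht, h4, h6, ofAdd_zero, map_one]

include hgX hinj hc1 in
/-- `q² ≤ |B|` -/
theorem le_card_BG [Finite G] [Finite K] (h : Hei X V) (hg : ∀ q ∈ V, g⁻¹ * q * g ∈ V) (hV : ¬ V ≤ X.range) :
    Nat.card K ^ 2 ≤ Nat.card (BG h hg) := by
  have hx : ∃ x ∈ V, x ∉ X.range ∧ ∀ y ∈ V, g⁻¹ * y * g * y⁻¹ ∈ X.range → y * x * y⁻¹ * x⁻¹ = 1 := by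
    by_cases h1 : ∃ x ∈ V, x ∉ X.range ∧ g⁻¹ * x * g * x⁻¹ ∈ X.range
    · obtain ⟨x, hx, hxX, hxc⟩ := h1
      exact ⟨x, hx, hxX, fun y hy hyc => comm_zero hc1 hgX hinj h hy hx hyc hxc⟩
    · push Not at h1
      obtain ⟨x, hx, hxX⟩ := Set.not_subset.1 hV
      refine ⟨x, hx, hxX, fun y hy hyc => ?_⟩
      have h2 : y ∈ X.range := by
        by_contra h3
        exact h1 y hy h3 hyc
      obtain ⟨u, rfl⟩ := h2
      rw [← h.cen x hx u]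
      group
  obtain ⟨x, hx, hxX, hxc⟩ := hx
  choose q hqV hq using fun t : K => h.nd x hx hxX t
  rw [pow_two, ← Nat.card_prod]
  refine Nat.card_le_card_of_injective
    (fun u : K × K => (⟨g⁻¹ * q u.1 * g * (q u.1)⁻¹ * X (.ofAdd u.2), q u.1, hqV _, _, rfl⟩ : BG h hg)) ?_
  rintro ⟨t, u⟩ ⟨t', u'⟩ he
  have he : g⁻¹ * q t * g * (q t)⁻¹ * X (.ofAdd u) = g⁻¹ * q t' * g * (q t')⁻¹ * X (.ofAdd u') := congrArg Subtype.val he
  have h1 : g⁻¹ * ((q t')⁻¹ * q t) * g * ((q t')⁻¹ * q t)⁻¹ ∈ X.range := by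
    refine ⟨.ofAdd u' * (.ofAdd u)⁻¹, ?_⟩
    have h2 : g⁻¹ * q t * g = g⁻¹ * q t' * g * (q t')⁻¹ * X (.ofAdd u' * (.ofAdd u)⁻¹) * q t := by
      have h3 : g⁻¹ * q t * g = (g⁻¹ * q t * g * (q t)⁻¹ * X (.ofAdd u)) * ((X (.ofAdd u))⁻¹ * q t) := by group
      rw [h3, he, map_mul, map_inv]
      group
    calc X (.ofAdd u' * (.ofAdd u)⁻¹) = X (.ofAdd u' * (.ofAdd u)⁻¹) * (q t * (q t)⁻¹) := by group
      _ = (q t)  * X (.ofAdd u' * (.ofAdd u)⁻¹) * (q t)⁻¹ := by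
          rw [h.cen _ (hqV t)]
          group
      _ = (q t')⁻¹ * ((q t') * (q t * X (.ofAdd u' * (.ofAdd u)⁻¹) * (q t)⁻¹)) := by group
      _ = (q t')⁻¹ * (X (.ofAdd u' * (.ofAdd u)⁻¹) * q t') := by
          rw [h.cen _ (hqV t)]
          have : q t' * (X (.ofAdd u' * (.ofAdd u)⁻¹) * q t * (q t)⁻¹) = q t' * X (.ofAdd u' * (.ofAdd u)⁻¹) := by group
          rw [this, h.cen _ (hqV t')]
      _ = g⁻¹ * ((q t')⁻¹ * q t) * g * ((q t')⁻¹ * q t)⁻¹ := by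
          have : g⁻¹ * ((q t')⁻¹ * q t) * g * ((q t')⁻¹ * q t)⁻¹ =
              (g⁻¹ * q t' * g)⁻¹ * (g⁻¹ * q t * g) * ((q t)⁻¹ * q t') := by group
          rw [this, h2]
          group
  have h2 := hxc _ (V.mul_mem (V.inv_mem (hqV t')) (hqV t)) h1
  have h3 : q t * x * (q t)⁻¹ * x⁻¹ = q t' * x * (q t')⁻¹ * x⁻¹ := by
    have h4 : (q t')⁻¹ * q t * x = x * ((q t')⁻¹ * q t) := by
      calc (q t')⁻¹ * q t * x = ((q t')⁻¹ * q t * x * ((q t')⁻¹ * q t)⁻¹ * x⁻¹) * x * ((q t')⁻¹ * q t) := by group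
        _ = x * ((q t')⁻¹ * q t) := by rw [h2, one_mul]
    have h5 : q t * x = q t' * x * (q t')⁻¹ * q t := by
      calc q t * x = q t' * ((q t')⁻¹ * q t * x) := by group
        _ = q t' * x * (q t')⁻¹ * q t := by rw [h4]; group
    rw [h5]
    group
  rw [hq, hq] at h3
  have ht : t = t' := Multiplicative.ofAdd.injective (hinj h3)
  subst ht
  have hu : u = u' := Multiplicative.ofAdd.injective (hinj (mul_left_cancel he))
  subst hu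
  rfl

include hgX hinj hc1 in
/-- **(D1)** -/
theorem ratio_move [Finite G] [Finite K] (h : Hei X V) (hgV : ∀ q, q ∈ V ↔ g * q * g⁻¹ ∈ V) (hV : ¬ V ≤ X.range)
    {W : Type*} [AddCommGroup W] [Module ℂ W] [FiniteDimensional ℂ W] (ρ : Representation ℂ G W) {r : ℝ} (hr : 0 ≤ r)
    (hx : ∀ x ∈ V, x ≠ 1 → ‖ρ.character x‖ ≤ r * finrank ℂ W) :
    ‖ρ.character g‖ ≤ (r + ((Nat.card K : ℝ) ^ 2)⁻¹) * finrank ℂ W := by
  have hg : ∀ q ∈ V, g⁻¹ * q * g ∈ V := by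
    intro q hq
    rw [hgV]
    have : g * (g⁻¹ * q * g) * g⁻¹ = q := by group
    rwa [this]
  have hnB : ∀ x ∈ BG h hg, g * x * g⁻¹ ∈ BG h hg := by
    rintro _ ⟨q, hq, u, rfl⟩
    refine ⟨g * q * g⁻¹, (hgV q).1 hq, .ofAdd (c * Multiplicative.toAdd u), ?_⟩
    rw [← hgX]
    have : X (.ofAdd (Multiplicative.toAdd u)) = X u := rfl
    rw [this]
    group
  have h1 := norm_character_le_fixd_rep (BG h hg) ρ g hnB fun x hx' => conj_BG hc1 hgX hinj h hg hx'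
  have := Fintype.ofFinite (BG h hg)
  have h2 := card_mul_cd ρ (BG h hg)
  have h3 : fixd (BG h hg) ρ.character = cd ρ (BG h hg) := by
    have hN : (Nat.card (BG h hg) : ℂ) ≠ 0 := by exact_mod_cast Nat.card_pos.ne'
    rw [fixd_def, ← h2, ← mul_assoc, inv_mul_cancel₀ hN, one_mul]
  rw [h3, Complex.norm_natCast] at h1
  have h4 := cd_le (ρ := ρ) (B := BG h hg) (r := r) (fun b hb hb1 => hx b (BG_le h hg hb) hb1) hr
  refine h1.trans (h4.trans ?_)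
  have h5 : ((Nat.card (BG h hg) : ℝ))⁻¹ ≤ ((Nat.card K : ℝ) ^ 2)⁻¹ := by
    have h6 := le_card_BG hc1 hgX hinj h hg hV
    have h7 : (0 : ℝ) < (Nat.card K : ℝ) ^ 2 := by
      have : 0 < Nat.card K := Nat.card_pos
      positivity
    exact inv_anti₀ h7 (by exact_mod_cast h6)
  exact mul_le_mul_of_nonneg_right (by linarith) (Nat.cast_nonneg _)

end

end Cfsg.Agent.H210.FR.DOne
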