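import Cfsg.Agent.H980.RB.CutQ

/-!
# Elements of order prime to `p` on a Heisenberg radical (S2452, `F₄(q)`; helper210)

`Hs X V` : `V` is a group of Heisenberg type over the field `K`, centre `X : Multiplicative K →* G`.

* `card_le` : if `s ≠ 1` of order prime to `p` centralises `X` and normalises the `p`-group `V` then
  `q² |{x ∈ V | [x, s] ∈ X}| ≤ |V|`.
-/

set_option autoImplicit false
set_option linter.unusedSectionVars false

namespace Cfsg.Agent.H210.FR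

variable {G : Type*} [Group G] {K : Type*} [Field K]

/-- a group of Heisenberg type over `K` -/
structure Hs (X : Multiplicative K →* G) (V : Subgroup G) : Prop where
  inj : Function.Injective X
  mem : ∀ t, X t ∈ V
  cen : ∀ t, ∀ q ∈ V, q * X t = X t * q
  com : ∀ a ∈ V, ∀ b ∈ V, a * b * a⁻¹ * b⁻¹ ∈ X.range
  nd : ∀ q ∈ V, q ∉ X.range → ∀ t : K, ∃ q' ∈ V, q' * q * q'⁻¹ * q⁻¹ = X (.ofAdd t)
  cv : ∀ s : G, (∀ q ∈ V, s * q = q * s) → s ∈ V
  scal : ∀ c : K, ∀ a ∈ V, ∃ a' ∈ V, ∀ b ∈ V, ∀ t : K, a * b * a⁻¹ * b⁻¹ = X (.ofAdd t) →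
    a' * b * a'⁻¹ * b⁻¹ = X (.ofAdd (c * t))

variable {X : Multiplicative K →* G} {V : Subgroup G}

open Classical in
/-- the commutator form -/
noncomputable def bb (X : Multiplicative K →* G) (a b : G) : K :=
  if h : ∃ t : K, a * b * a⁻¹ * b⁻¹ = X (.ofAdd t) then h.choose else 0

namespace Hs

variable (H : Hs X V)

include H

theorem bb_eq {a b : G} {t : K} (h : a * b * a⁻¹ * b⁻¹ = X (.ofAdd t)) : bb X a b = t := by
  have h1 : ∃ t : K, a * b * a⁻¹ * b⁻¹ = X (.ofAdd t) := ⟨t, h⟩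
  rw [bb, dif_pos h1]
  exact (Multiplicative.ofAdd.injective (H.inj (h.symm.trans h1.choose_spec))).symm

theorem bb_spec {a b : G} (ha : a ∈ V) (hb : b ∈ V) : a * b * a⁻¹ * b⁻¹ = X (.ofAdd (bb X a b)) := by
  obtain ⟨t, ht⟩ := H.com a ha b hb
  have h1 : a * b * a⁻¹ * b⁻¹ = X (.ofAdd (Multiplicative.toAdd t)) := ht.symm
  rw [H.bb_eq h1]
  exact h1

theorem bb_mul_left {a a' b : G} (ha : a ∈ V) (ha' : a' ∈ V) (hb : b ∈ V) : bb X (a * a') b = bb X a b + bb X a' b := by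
  refine H.bb_eq ?_
  have h1 := H.bb_spec ha hb
  have h2 := H.bb_spec ha' hb
  have h3 : a * a' * b * (a * a')⁻¹ * b⁻¹ = a * (a' * b * a'⁻¹ * b⁻¹) * (b * a⁻¹ * b⁻¹) := by group
  rw [h3, h2, H.cen _ a ha, add_comm, ofAdd_add, map_mul, ← h1]
  group

theorem bb_swap {a b : G} (ha : a ∈ V) (hb : b ∈ V) : bb X b a = -bb X a b := by
  refine H.bb_eq ?_
  rw [ofAdd_neg, map_inv, ← H.bb_spec ha hb]
  group

theorem bb_mul_right {a b b' : G} (ha : a ∈ V) (hb : b ∈ V) (hb' : b' ∈ V) : bb X a (b * b') = bb X a b + bb X a b' := by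
  rw [H.bb_swap (V.mul_mem hb hb') ha, H.bb_mul_left hb hb' ha, H.bb_swap ha hb, H.bb_swap ha hb']
  ring

theorem bb_X_left (t : Multiplicative K) {b : G} (hb : b ∈ V) : bb X (X t) b = 0 := by
  refine H.bb_eq ?_
  rw [← H.cen t b hb, ofAdd_zero, map_one]
  group

theorem bb_X_right (t : Multiplicative K) {b : G} (hb : b ∈ V) : bb X b (X t) = 0 := by
  rw [H.bb_swap (H.mem t) hb, H.bb_X_left t hb, neg_zero]

theorem bb_inv_left {a b : G} (ha : a ∈ V) (hb : b ∈ V) : bb X a⁻¹ b = -bb X a b := by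
  have h1 := H.bb_mul_left (V.inv_mem ha) ha hb
  rw [inv_mul_cancel] at h1
  have h2 := H.bb_X_left 1 hb
  rw [map_one] at h2
  rw [h2] at h1
  linear_combination -h1

theorem bb_inv_right {a b : G} (ha : a ∈ V) (hb : b ∈ V) : bb X a b⁻¹ = -bb X a b := by
  rw [H.bb_swap (V.inv_mem hb) ha, H.bb_inv_left hb ha, H.bb_swap ha hb, neg_neg]

theorem bb_self {a : G} : bb X a a = 0 := by
  refine H.bb_eq ?_
  rw [ofAdd_zero, map_one]
  group

omit H in
theorem _root_.Cfsg.Agent.H210.FR.conj_comm {s a b : G} :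
    s * a * s⁻¹ * (s * b * s⁻¹) * (s * a * s⁻¹)⁻¹ * (s * b * s⁻¹)⁻¹ = s * (a * b * a⁻¹ * b⁻¹) * s⁻¹ := by group

theorem bb_conj {s a b : G} (hs : ∀ t, s * X t = X t * s) (ha : a ∈ V) (hb : b ∈ V) :
    bb X (s * a * s⁻¹) (s * b * s⁻¹) = bb X a b := by
  refine H.bb_eq ?_
  rw [conj_comm, H.bb_spec ha hb, hs]
  group

/-- `[y, s]` against `b` -/
theorem bb_comm {s y b : G} (hs : ∀ t, s * X t = X t * s) (hsV : ∀ q, q ∈ V ↔ s * q * s⁻¹ ∈ V) (hy : y ∈ V)
    (hb : b ∈ V) : bb X (y * s * y⁻¹ * s⁻¹) b = bb X y b - bb X y (s⁻¹ * b * s) := by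
  have h1 : s⁻¹ * b * s ∈ V := by
    rw [hsV]
    have : s * (s⁻¹ * b * s) * s⁻¹ = b := by group
    rwa [this]
  have h2 : y * s * y⁻¹ * s⁻¹ = y * (s * y * s⁻¹)⁻¹ := by group
  have h3 : b = s * (s⁻¹ * b * s) * s⁻¹ := by group
  have h4 := H.bb_conj hs hy h1
  rw [← h3] at h4
  rw [h2, H.bb_mul_left hy (V.inv_mem ((hsV y).1 hy)) hb, H.bb_inv_left ((hsV y).1 hy) hb, h4]
  ring

/-- `[y, s]` is orthogonal to the elements centralised by `s` modulo the centre -/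
theorem bb_fix {s y r : G} (hs : ∀ t, s * X t = X t * s) (hsV : ∀ q, q ∈ V ↔ s * q * s⁻¹ ∈ V) (hy : y ∈ V)
    (hr : r ∈ V) (hrs : r * s * r⁻¹ * s⁻¹ ∈ X.range) : bb X (y * s * y⁻¹ * s⁻¹) r = 0 := by
  rw [H.bb_comm hs hsV hy hr]
  obtain ⟨t, ht⟩ := hrs
  have h1 : s⁻¹ * r * s = X t * r := by
    have h2 : X t * s * r = r * s := by
      rw [ht]
      group
    rw [← hs] at h2
    have h3 : s⁻¹ * r * s = s⁻¹ * (r * s) := by group
    rw [h3, ← h2]
    group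
  rw [h1, H.bb_mul_right hy (H.mem t) hr, H.bb_X_right t hy]
  ring

section coprime

variable {p : ℕ} [Fact p.Prime] (hp : IsPGroup p V) {s : G} (hsp : (orderOf s).Coprime p)
  (hsX : ∀ t, s * X t = X t * s) (hsV : ∀ q, q ∈ V ↔ s * q * s⁻¹ ∈ V)

include hp in
omit H in
theorem _root_.Cfsg.Agent.H210.FR.order_pow {d : G} (hd : d ∈ V) {n : ℕ} (hn : n.Coprime p) : n.Coprime (orderOf d) := by
  obtain ⟨k, hk⟩ := hp ⟨d, hd⟩
  have h1 : d ^ p ^ k = 1 := by
    have := congrArg Subtype.val hk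
    simpa using this
  exact Nat.Coprime.coprime_dvd_right (orderOf_dvd_of_pow_eq_one h1) (Nat.Coprime.pow_right k hn)

include hp hsp hsX in
/-- `s` does not centralise `V / X` -/
theorem exists_comm (hs1 : s ≠ 1) : ∃ x ∈ V, x * s * x⁻¹ * s⁻¹ ∉ X.range := by
  by_contra hne
  push Not at hne
  refine hs1 ?_
  have hc : ∀ y ∈ V, s * y = y * s := by
    intro y hy
    obtain ⟨t, ht⟩ := hne y⁻¹ (V.inv_mem hy)
    have h1 : s * y * s⁻¹ = y * X t := by
      rw [ht]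
      group
    have h2 : ∀ k : ℕ, s ^ k * y * (s ^ k)⁻¹ = y * X t ^ k := by
      intro k
      induction k with
      | zero => simp
      | succ k ih =>
        have h3 : s ^ (k + 1) * y * (s ^ (k + 1))⁻¹ = s * (s ^ k * y * (s ^ k)⁻¹) * s⁻¹ := by
          rw [pow_succ']
          group
        have h4 : s * X t ^ k = X t ^ k * s := by
          have : Commute s (X t) := hsX t
          exact this.pow_right k
        rw [h3, ih]
        calc s * (y * X t ^ k) * s⁻¹ = (s * y * s⁻¹) * (s * X t ^ k) * s⁻¹ := by group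
          _ = y * X t ^ (k + 1) := by
            rw [h4, h1, pow_succ']
            group
    have h3 := h2 (orderOf s)
    rw [pow_orderOf_eq_one] at h3
    have h4 : X t ^ orderOf s = 1 := by
      have h5 : y * X t ^ orderOf s = y := by
        rw [← h3]
        group
      exact mul_eq_left.1 h5
    have h5 := order_pow hp (H.mem t) hsp
    have h6 : X t = 1 := by
      rw [← orderOf_eq_one_iff]
      exact Nat.eq_one_of_dvd_coprimes h5 (orderOf_dvd_of_pow_eq_one h4) dvd_rfl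
    rw [h6, mul_one] at h1
    exact mul_inv_eq_iff_eq_mul.1 h1
  have hsVm := H.cv s hc
  have h5 := order_pow hp hsVm hsp
  rw [← orderOf_eq_one_iff]
  exact Nat.eq_one_of_dvd_coprimes h5 dvd_rfl dvd_rfl

include hp hsp hsX hsV in
/-- `[V, s]` and `C_V(s)` meet in the centre -/
theorem not_fix {x : G} (hx : x ∈ V) (hd : x * s * x⁻¹ * s⁻¹ ∉ X.range) :
    (x * s * x⁻¹ * s⁻¹) * s * (x * s * x⁻¹ * s⁻¹)⁻¹ * s⁻¹ ∉ X.range := by
  set d := x * s * x⁻¹ * s⁻¹ with hdd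
  have hdV : d ∈ V := by
    have : d = x * (s * x⁻¹ * s⁻¹) := by rw [hdd]; group
    rw [this]
    exact V.mul_mem hx ((hsV _).1 (V.inv_mem hx))
  rintro ⟨t, ht⟩
  refine hd ?_
  have h1 : s * d * s⁻¹ = d * X t⁻¹ := by
    have h2 : X t * s * d = d * s := by rw [ht]; group
    rw [← hsX] at h2
    have h3 : s * d = d * s * X t⁻¹ := by
      have h4 : X t * d = d * X t := (H.cen t d hdV).symm
      have h5 : d * s * X t⁻¹ = d * X t⁻¹ * s := by rw [mul_assoc, hsX, ← mul_assoc]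
      have h6 : s * X t * d = s * d * X t := by rw [mul_assoc, h4, ← mul_assoc]
      rw [h6] at h2
      rw [← h2, map_inv]
      group
    rw [h3, mul_assoc d, hsX, map_inv]
    group
  obtain ⟨y, hy⟩ : ∃ y, y = x⁻¹ := ⟨_, rfl⟩
  have hyV : y ∈ V := hy ▸ V.inv_mem hx
  have h2 : s * y * s⁻¹ = y * d := by
    rw [hy, hdd]
    group
  have h3 : ∀ k : ℕ, ∃ z ∈ X.range, s ^ k * y * (s ^ k)⁻¹ = y * d ^ k * z := by
    intro k
    induction k with
    | zero => exact ⟨1, one_mem _, by simp⟩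
    | succ k ih =>
      obtain ⟨_, ⟨u, rfl⟩, h4⟩ := ih
      refine ⟨X (t⁻¹ ^ k * u), ⟨_, rfl⟩, ?_⟩
      have h5 : s ^ (k + 1) * y * (s ^ (k + 1))⁻¹ = s * (s ^ k * y * (s ^ k)⁻¹) * s⁻¹ := by
        rw [pow_succ']
        group
      have h6 : s * d ^ k * s⁻¹ = d ^ k * X t⁻¹ ^ k := by
        have h7 : Commute d (X t⁻¹) := H.cen t⁻¹ d hdV
        rw [← conj_pow, h1, h7.mul_pow]
      have h7 : s * X u * s⁻¹ = X u := by rw [hsX]; group
      rw [h5, h4]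
      calc s * (y * d ^ k * X u) * s⁻¹ = (s * y * s⁻¹) * (s * d ^ k * s⁻¹) * (s * X u * s⁻¹) := by group
        _ = y * d ^ (k + 1) * X (t⁻¹ ^ k * u) := by
          rw [h2, h6, h7, map_mul, map_pow, pow_succ']
          group
  obtain ⟨z, hz, h4⟩ := h3 (orderOf s)
  rw [pow_orderOf_eq_one] at h4
  have h5 : d ^ orderOf s = z⁻¹ := by
    have h6 : y * d ^ orderOf s * z = y * 1 := by
      rw [← h4]
      group
    rw [mul_assoc] at h6
    exact eq_inv_of_mul_eq_one_left (mul_left_cancel h6)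
  obtain ⟨m, hm⟩ := exists_pow_eq_self_of_coprime (order_pow hp hdV hsp)
  rw [← hm, h5]
  exact pow_mem (inv_mem hz) m

include hp hsp hsX hsV in
/-- **`q² |C_V(s mod X)| ≤ |V|`** -/
theorem card_le [Finite G] [Finite K] (hs1 : s ≠ 1) :
    Nat.card K ^ 2 * Nat.card {x : ↥V // (x : G) * s * (x : G)⁻¹ * s⁻¹ ∈ X.range} ≤ Nat.card V := by
  obtain ⟨x, hx, hd⟩ := H.exists_comm hp hsp hsX hs1
  have hd' := H.not_fix hp hsp hsX hsV hx hd
  set d := x * s * x⁻¹ * s⁻¹ with hdd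
  have hcV : ∀ y ∈ V, y * s * y⁻¹ * s⁻¹ ∈ V := by
    intro y hy
    have : y * s * y⁻¹ * s⁻¹ = y * (s * y⁻¹ * s⁻¹) := by group
    rw [this]
    exact V.mul_mem hy ((hsV _).1 (V.inv_mem hy))
  have hdV : d ∈ V := hcV x hx
  have hsd : s⁻¹ * d * s ∈ V := by
    rw [hsV]
    have : s * (s⁻¹ * d * s) * s⁻¹ = d := by group
    rwa [this]
  have hB : ∀ t : K, ∃ y ∈ V, bb X (y * s * y⁻¹ * s⁻¹) d = t := by
    intro t
    have h1 : d * (s⁻¹ * d * s)⁻¹ ∉ X.range := by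
      rintro ⟨u, hu⟩
      refine hd' ⟨u⁻¹, ?_⟩
      have h2 : s * X u * s⁻¹ = X u := by rw [hsX]; group
      rw [map_inv, ← h2, hu]
      group
    obtain ⟨y, hy, h2⟩ := H.nd _ (V.mul_mem hdV (V.inv_mem hsd)) h1 t
    refine ⟨y, hy, ?_⟩
    have h3 := H.bb_eq h2
    rw [H.bb_mul_right hy hdV (V.inv_mem hsd), H.bb_inv_right hy hsd] at h3
    rw [H.bb_comm hsX hsV hy hdV]
    linear_combination h3
  choose y hyV hy using hB
  have hC : ∀ c : K, ∃ a ∈ V, ∀ b ∈ V, bb X a b = c * bb X d b := by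
    intro c
    obtain ⟨a, ha, h⟩ := H.scal c d hdV
    exact ⟨a, ha, fun b hb => H.bb_eq (h b hb _ (H.bb_spec hdV hb))⟩
  choose a haV ha using hC
  have hcard : Nat.card K ^ 2 * Nat.card {x : ↥V // (x : G) * s * (x : G)⁻¹ * s⁻¹ ∈ X.range} =
      Nat.card (K × K × {x : ↥V // (x : G) * s * (x : G)⁻¹ * s⁻¹ ∈ X.range}) := by
    rw [Nat.card_prod, Nat.card_prod, pow_two, mul_assoc]
  rw [hcard]
  refine Nat.card_le_card_of_injective
    (fun u => (⟨y u.1 * s * (y u.1)⁻¹ * s⁻¹ * (a u.2.1 * (u.2.2.1 : G)),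
      V.mul_mem (hcV _ (hyV _)) (V.mul_mem (haV _) u.2.2.1.2)⟩ : V)) ?_
  rintro ⟨t, c, ⟨⟨r, hr⟩, hrs⟩⟩ ⟨t', c', ⟨⟨r', hr'⟩, hrs'⟩⟩ h
  have h : y t * s * (y t)⁻¹ * s⁻¹ * (a c * r) = y t' * s * (y t')⁻¹ * s⁻¹ * (a c' * r') := congrArg Subtype.val h
  have hv : ∀ (t c : K) (r : G), r ∈ V → r * s * r⁻¹ * s⁻¹ ∈ X.range →
      bb X (y t * s * (y t)⁻¹ * s⁻¹ * (a c * r)) d = t := by
    intro t c r hr hrs
    rw [H.bb_mul_left (hcV _ (hyV _)) (V.mul_mem (haV _) hr) hdV, H.bb_mul_left (haV _) hr hdV, hy, ha c d hdV,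
      H.bb_self, H.bb_swap hdV hr, hdd, H.bb_fix hsX hsV hx hr hrs]
    ring
  have ht : t = t' := by
    rw [← hv t c r hr hrs, h, hv t' c' r' hr' hrs']
  subst ht
  have h1 : a c * r = a c' * r' := mul_left_cancel h
  have hw : ∀ (c : K) (r : G), r ∈ V → r * s * r⁻¹ * s⁻¹ ∈ X.range →
      bb X (a c * r) (y 1 * s * (y 1)⁻¹ * s⁻¹) = -c := by
    intro c r hr hrs
    rw [H.bb_mul_left (haV _) hr (hcV _ (hyV _)), ha c _ (hcV _ (hyV _)), H.bb_swap (hcV _ (hyV _)) hdV, hy,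
      H.bb_swap (hcV _ (hyV _)) hr, H.bb_fix hsX hsV (hyV _) hr hrs]
    ring
  have hc : c = c' := by
    have h2 := hw c r hr hrs
    rw [h1, hw c' r' hr' hrs'] at h2
    exact (neg_injective h2).symm
  subst hc
  have h3 : r = r' := mul_left_cancel h1
  subst h3
  rfl

end coprime

end Hs

end Cfsg.Agent.H210.FR
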